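import Cfsg.Agent.H455.TC.CertX
import Cfsg.Agent.H606.OreM.Sieve

/-!
# The Monster: the degrees prime to 59 and 71 are at least 17766631680 (helper455, for the pair (59A, 71A))
-/

set_option autoImplicit false
set_option maxRecDepth 100000

open Cfsg Subgroup

namespace Cfsg.Agent.H455.TC.DegX

open Cfsg.Agent.BpSpor.MBigModel
open Cfsg.Agent.Characters.Core
open Cfsg.Agent.H606.OreM.Num (testD cA cB tabs)
open Cfsg.Agent.H455.OreM.Enum Cfsg.Agent.H455.TC.CertX
open Cfsg.Agent.H455.OreM.Deg19 (Loc testD_deg res71 res59 exists_order)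

/-- the residues modulo 41 -/
theorem res41 (L : Loc) (χ : IrrCharacter MG) : [0, 1, 40].contains (charDegree (χ : MG → ℂ) % 41) = true := by
  obtain ⟨x, hx⟩ := exists_order (r := 41) (by norm_num) (by norm_num)
  have h := Cfsg.Agent.H606.OreM.res_self (r := 41) (e := 40) (f := 1) (by norm_num) (by decide +kernel) hx (L.c41 x hx) χ
  rcases h with h | h | h | h | h <;> rw [h] <;> rfl

theorem tst_of {d : ℕ} (h : tst d = true) (h41 : [0, 1, 40].contains (d % 41) = true)
    (h71 : [1, 70, 35, 36].contains (d % 71) = true) (h59 : [1, 58, 29, 30].contains (d % 59) = true) :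
    testD cA cB tabs d = true := by
  rw [tst, bit_of (wl := [1, 58, 29, 30]) (by norm_num) (by decide +kernel) h59,
    bit_of (wl := [1, 70, 35, 36]) (by norm_num) (by decide +kernel) h71,
    bit_of (wl := [0, 1, 40]) (by norm_num) (by decide +kernel) h41] at h
  exact h

theorem tst2_spec {m a : ℕ} (hm : 0 < m) (h : tst2 m = true) (h1 : 4962352590 ≤ 2 ^ a * m) (h2 : 2 ^ a * m < 17766631680) :
    tst (2 ^ a * m) = true := by
  rw [tst2, force_eq, Bool.and_eq_true] at h
  obtain ⟨h3, h4⟩ := h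
  have e1 : Nat.shiftLeft m (Nat.log2 (Nat.div 17766631679 m)) = 2 ^ Nat.log2 (17766631679 / m) * m := by
    show m <<< Nat.log2 (17766631679 / m) = _
    rw [Nat.shiftLeft_eq, mul_comm]
  rw [e1] at h3 h4
  set b := Nat.log2 (17766631679 / m) with hb
  have hq : 2 ^ a ≤ 17766631679 / m := by
    rw [Nat.le_div_iff_mul_le hm]
    omega
  have hq0 : 17766631679 / m ≠ 0 := by
    have := Nat.one_le_two_pow (n := a)
    omega
  have hb1 : 2 ^ b ≤ 17766631679 / m := Nat.log2_self_le hq0
  have hb2 : 17766631679 / m < 2 ^ (b + 1) := Nat.lt_log2_self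
  have hb3 : 2 ^ b * m ≤ 17766631679 := (Nat.le_div_iff_mul_le hm).1 hb1
  have hab : a ≤ b := by
    by_contra hcon
    have h5 : 2 ^ (b + 1) ≤ 2 ^ a := Nat.pow_le_pow_right (by norm_num) (by omega)
    omega
  rcases Nat.lt_or_ge a b with h5 | h5
  · have h6 : b = a + 1 := by
      by_contra hcon
      have h7 : 2 ^ (a + 2) ≤ 2 ^ b := Nat.pow_le_pow_right (by norm_num) (by omega)
      have h8 : 4 * (2 ^ a * m) ≤ 2 ^ b * m := by
        calc 4 * (2 ^ a * m) = 2 ^ (a + 2) * m := by rw [pow_add]; ring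
          _ ≤ _ := Nat.mul_le_mul_right m h7
      omega
    rw [h6] at h4
    have e2 : 2 ^ (a + 1) * m = 2 * (2 ^ a * m) := by rw [pow_succ]; ring
    rw [e2] at h4
    have e3 : Nat.mod (2 * (2 ^ a * m)) 2 = 0 := Nat.mul_mod_right 2 _
    have e4 : Nat.div (2 * (2 ^ a * m)) 2 = 2 ^ a * m := Nat.mul_div_cancel_left _ (by norm_num)
    rw [e3, e4, force_eq] at h4
    exact h4
  · have h6 : a = b := le_antisymm hab h5
    rw [h6]
    exact h3

/-- **The degrees prime to 59 and 71.** -/
theorem degX (L : Loc) (χ : IrrCharacter MG) (hχ : (χ : MG → ℂ) ≠ 1) (h59 : ¬ 59 ∣ charDegree (χ : MG → ℂ))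
    (h71 : ¬ 71 ∣ charDegree (χ : MG → ℂ)) : 17766631680 ≤ charDegree (χ : MG → ℂ) := by
  by_contra hlt
  push Not at hlt
  have hlo := Cfsg.Agent.H606.OreM.deg_ge L χ hχ h59
  have hd : charDegree (χ : MG → ℂ) ∣ 808017424794512875886459904961710757005754368000000000 := by
    rw [← card_M]
    exact Blocks.Knorr.charDegree_dvd χ.2
  have r59 : [1, 58, 29, 30].contains (charDegree (χ : MG → ℂ) % 59) = true := by
    have h := res59 L χ
    have h0 : charDegree (χ : MG → ℂ) % 59 ≠ 0 := fun h => h59 (Nat.dvd_of_mod_eq_zero h)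
    simp only [List.contains_iff_mem, List.mem_cons, List.not_mem_nil, or_false] at h ⊢
    omega
  have r71 : [1, 70, 35, 36].contains (charDegree (χ : MG → ℂ) % 71) = true := by
    have h := res71 L χ
    have h0 : charDegree (χ : MG → ℂ) % 71 ≠ 0 := fun h => h71 (Nat.dvd_of_mod_eq_zero h)
    simp only [List.contains_iff_mem, List.mem_cons, List.not_mem_nil, or_false] at h ⊢
    omega
  have r41 := res41 L χ
  have hT := testD_deg L χ
  set d := charDegree (χ : MG → ℂ) with hdef
  -- the odd part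
  have p59 : Nat.Prime 59 := by norm_num
  have p71 : Nat.Prime 71 := by norm_num
  have c59 : Nat.Coprime d 59 := by rw [Nat.coprime_comm, p59.coprime_iff_not_dvd]; exact h59
  have c71 : Nat.Coprime d 71 := by rw [Nat.coprime_comm, p71.coprime_iff_not_dvd]; exact h71
  rw [← L_prod] at hd
  obtain ⟨x, m, hx, hm, hxm⟩ := (Nat.dvd_mul).1 hd
  obtain ⟨a, -, rfl⟩ := (Nat.dvd_prime_pow Nat.prime_two).1 hx
  have hmd : m ∣ d := ⟨2 ^ a, by rw [← hxm]; ring⟩
  have hm' : m ∣ prod CertX.L :=
    (Nat.Coprime.mul_right (c59.coprime_dvd_left hmd) (c71.coprime_dvd_left hmd)).dvd_of_dvd_mul_right hm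
  have hm0 : 0 < m := Nat.pos_of_dvd_of_pos hm' (prod_pos CertX.L_prime)
  have hmD : m < 17766631680 := lt_of_le_of_lt (Nat.le_of_dvd (by omega) hmd) hlt
  have h2 : tst2 m = true := by
    rcases Nat.eq_or_lt_of_le (Nat.one_le_iff_ne_zero.2 hm0.ne') with h1 | h1
    · rw [← h1]; exact check1
    · have := go_spec (q := 0) (by decide) CertX.L_prime check m hm' (by omega) (by rwa [one_mul])
      rwa [one_mul] at this
  rw [← hxm] at hlo hlt r59 r71 r41 hT
  have h3 := tst_of (tst2_spec hm0 h2 hlo hlt) r41 r71 r59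
  rw [hT] at h3
  exact absurd h3 (by decide)

end Cfsg.Agent.H455.TC.DegX
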